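import Cfsg.Agent.H38.DG.Twist
import Cfsg.Agent.S2407
import Cfsg.Agent.H69.OutTwD4

/-!
# S4180, row `Cos2` for `³D₄(q)`: generation with a field automorphism (helper38)

`main_tw`: for every field automorphism `τ` there are `h`, `u` in `T = ³D₄(q)` such that a subgroup of `T` containing
`h` and normalised by `u τ` is `T`.
-/

set_option autoImplicit false

namespace Cfsg.Agent.H38.DG.TwD4

open Cfsg.Lie
open Cfsg.Agent.ChevalleyStructure.D4Comm Cfsg.Agent.ChevalleyStructure.D4NCheck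
open Cfsg.Agent.ChevalleyStructure.D4NConj Cfsg.Agent.ChevalleyStructure.D4RGD
open Cfsg.Agent.ChevalleyStructure.D4Perm Cfsg.Agent.ChevalleyStructure.D4TwN
open Cfsg.Agent.ChevalleyStructure.D4Cols (xU)
open Cfsg.Agent.ChevalleyStructure.D4Fixed (X Y fix mem_fix twisted_le_fix twisted_induction X_mem Y_mem exists_frob)
open Cfsg.Agent.ChevalleyStructure.D4HConj
open Cfsg.Agent.ChevalleyStructure.D4Perfect
open Cfsg.Agent.ChevalleyStructure.D4U (RS na nb na_RS nb_RS RS_outer_fix phi3)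
open Cfsg.Agent.ChevalleyStructure.D4Pos
open Cfsg.Agent.ChevalleyStructure.TwistedU
open Cfsg.Agent.ChevStructure.FieldMap
open Cfsg.Agent.H136 Cfsg.Agent.S2407

variable {K : Type*} [Field K] {φ : K →+* K} {q : ℕ}

/-! ### the action of the field automorphisms -/

section Gl

variable (τ : K ≃+* K)

theorem gl_xG (r : ℕ) (t : K) : glEquiv chevD4 τ (xG r t) = xG r (τ t) := by
  apply Units.ext
  rw [glEquiv_coe, coe_xG, coe_xG]
  exact x_map chevD4 (τ : K →+* K) r t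

theorem gl_nR (r : ℕ) (t : K) : glEquiv chevD4 τ (nR r t) = nR r (τ t) := by
  rw [nR_def, nR_def, map_mul, map_mul, gl_xG, gl_xG, map_neg, map_inv₀]

theorem gl_hR (r : ℕ) (t : K) : glEquiv chevD4 τ (hR r t) = hR r (τ t) := by
  rw [hR_def, hR_def, map_mul, gl_nR, gl_nR, map_neg, map_one]

theorem gl_nG (i : ℕ) : glEquiv chevD4 τ (nG K i) = nG K i := by
  rw [nG_def, gl_nR, map_one]

theorem gl_nA : glEquiv chevD4 τ (nA K) = nA K := by
  rw [nA_def, map_mul, map_mul, gl_nG, gl_nG, gl_nG]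

theorem gl_nB : glEquiv chevD4 τ (nB K) = nB K := by
  rw [nB_def, gl_nG]

theorem gl_vv : glEquiv chevD4 τ (vv K) = vv K := by
  rw [vv, map_mul, gl_nA, gl_nB]

variable {τ} (hτ : ∀ a, τ (φ a) = φ (τ a))

include hτ

theorem gl_X (t : K) : glEquiv chevD4 τ (X φ t) = X φ (τ t) := by
  rw [X_def', X_def', map_mul, map_mul, gl_xG, gl_xG, gl_xG, hτ, hτ, hτ]

theorem gl_Y (t : K) : glEquiv chevD4 τ (Y φ t) = Y φ (τ t) := by
  rw [Y_def', Y_def', map_mul, map_mul, gl_xG, gl_xG, gl_xG, hτ, hτ, hτ]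

theorem gl_hA (c : K) : glEquiv chevD4 τ (hA φ c) = hA φ (τ c) := by
  rw [hA, hA, map_mul, map_mul, gl_hR, gl_hR, gl_hR, hτ, hτ, hτ]

end Gl

theorem main_tw [Fintype K] (hq : IsPrimePow q) (hK : Fintype.card K = q ^ 3) (τ : K ≃+* K) :
    ∃ h u : GL chevD4.Idx K, h ∈ twistedD4 K q ∧ u ∈ twistedD4 K q ∧ ∀ M : Subgroup (GL chevD4.Idx K),
      M ≤ twistedD4 K q → h ∈ M → (∀ g ∈ twistedD4 K q, (g ∈ M ↔ u * glEquiv chevD4 τ g * u⁻¹ ∈ M)) →
        twistedD4 K q ≤ M := by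
  obtain ⟨φ, hφ⟩ := exists_frob hq hK
  have hτ : ∀ a, τ (φ a) = φ (τ a) := fun a => by rw [hφ, hφ, map_pow]
  have hfix := twisted_le_fix hK hφ
  have hq2 : 2 ≤ q := hq.two_le
  have hq3 : 2 ^ 3 ≤ q ^ 3 := Nat.pow_le_pow_left hq2 3
  obtain ⟨c, hc⟩ := IsCyclic.exists_generator (α := Kˣ)
  have hc0 : (c : K) ≠ 0 := c.ne_zero
  have hord : orderOf c = q ^ 3 - 1 := by
    rw [orderOf_eq_card_of_forall_mem_zpowers hc, Nat.card_units, Nat.card_eq_fintype_card, hK]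
  have hpow : ∀ n, 0 < n → n < q ^ 3 - 1 → (c : K) ^ n ≠ 1 := by
    intro n h0 hn h1
    have h2 : c ^ n = 1 := Units.ext (by rw [Units.val_pow_eq_pow_val, h1, Units.val_one])
    have := Nat.le_of_dvd h0 (orderOf_dvd_of_pow_eq_one h2)
    omega
  have hc2 : (c : K) ^ 2 ≠ 1 := hpow 2 (by norm_num) (by omega)
  have hlam0 : φ c * φ (φ c) ≠ c := by
    intro h
    have h1 : φ c * φ (φ c) = (c : K) ^ (q + q ^ 2) := by
      rw [hφ (φ c), hφ c, ← pow_mul, ← pow_add, ← sq]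
    have h2 : q ^ 2 + q ^ 2 ≤ q ^ 3 := by nlinarith [Nat.pos_of_ne_zero (by omega : q ≠ 0)]
    have h3 : q + q < q ^ 2 + q := by nlinarith
    refine hpow (q + q ^ 2 - 1) (by omega) (by omega) ?_
    apply mul_right_cancel₀ hc0
    rw [one_mul, ← pow_succ, Nat.sub_add_cancel (by omega), ← h1, h]
  set d : K := τ c with hd
  have hd0 : d ≠ 0 := by rw [hd, Ne, map_eq_zero_iff _ τ.injective]; exact hc0
  have hlam : φ d * φ (φ d) ≠ d := by
    intro h
    apply hlam0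
    apply τ.injective
    rw [map_mul, hτ, hτ, hτ]
    exact h
  have hvT : vv K ∈ twistedD4 K q := mul_mem (nA_mem_twisted hφ) (nB_mem_twisted hφ)
  have hvN : vv K ∈ chevD4.monomialSubgroup K := mul_mem (nA_mem K) (nB_mem K)
  have hhD : hA φ (c : K) ∈ chevD4.diagonalSubgroup K := hA_mem_diagonal hc0
  have hhT : hA φ (c : K) ∈ twistedD4 K q := hA_mem hφ _
  have hhD' : hA φ d ∈ chevD4.diagonalSubgroup K := hA_mem_diagonal hd0
  have hhT' : hA φ d ∈ twistedD4 K q := hA_mem hφ _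
  refine ⟨hA φ (c : K), X φ 1 * (vv K)⁻¹, hhT, mul_mem (X_mem hφ 1) (inv_mem hvT), ?_⟩
  intro M hMT ha hM
  have hσT : ∀ g ∈ twistedD4 K q, glEquiv chevD4 τ g ∈ twistedD4 K q := fun g hg =>
    Cfsg.Agent.H69.OutTwD4.le_comap τ q hg
  have h1D : (vv K)⁻¹ * hA φ d * (vv K)⁻¹⁻¹ ∈ chevD4.diagonalSubgroup K :=
    conj_mem_diagonal (inv_mem hvN) hhD'
  have h1T : (vv K)⁻¹ * hA φ d * (vv K)⁻¹⁻¹ ∈ twistedD4 K q :=
    mul_mem (mul_mem (inv_mem hvT) hhT') (inv_mem (inv_mem hvT))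
  have eh : glEquiv chevD4 τ (hA φ (c : K)) = hA φ d := gl_hA hτ _
  obtain ⟨hXM, hwM⟩ := twisted_trick (glEquiv chevD4 τ) M (XS φ) (h := hA φ (c : K)) (w := (vv K)⁻¹) (u := X φ 1) ha
    (fun g hg => (hM g (hMT hg)).1 hg)
    ⟨1, rfl⟩ (fun x hx => by rw [eh]; exact conj_XS hK hφ h1D h1T hx)
    (fun x hx => by
      have := conj_XS hK hφ (inv_mem h1D) (inv_mem h1T) hx
      rw [inv_inv] at this
      rw [eh]
      exact this)
    (irr hc)
    ⟨X φ 1, ⟨1, rfl⟩, fun h => by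
      have h2 := hA_conj_X (φ := φ) hc0 1
      rw [h, mul_inv_cancel_right] at h2
      have h3 := X_inj h2
      rw [mul_one] at h3
      exact hc2 h3.symm⟩
    (fun x hx => conj_XS hK hφ hhD hhT hx)
    (by rw [eh]; exact diag_comm hhD h1D)
    (fun h => by
      rw [eh] at h
      have h2 : hA φ d * (vv K * X φ 1 * (vv K)⁻¹) * (hA φ d)⁻¹ = vv K * X φ 1 * (vv K)⁻¹ := by
        have h3 : vv K * ((vv K)⁻¹ * hA φ d * (vv K)⁻¹⁻¹ * X φ 1) * (vv K)⁻¹ =
            vv K * (X φ 1 * ((vv K)⁻¹ * hA φ d * (vv K)⁻¹⁻¹)) * (vv K)⁻¹ := by rw [h]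
        have h4 : vv K * ((vv K)⁻¹ * hA φ d * (vv K)⁻¹⁻¹ * X φ 1) * (vv K)⁻¹ =
            hA φ d * (vv K * X φ 1 * (vv K)⁻¹) := by group
        have h5 : vv K * (X φ 1 * ((vv K)⁻¹ * hA φ d * (vv K)⁻¹⁻¹)) * (vv K)⁻¹ =
            (vv K * X φ 1 * (vv K)⁻¹) * hA φ d := by group
        rw [h4, h5] at h3
        rw [h3, mul_inv_cancel_right]
      rw [vv_X, conj3, hA_conj (by norm_num) hd0, hA_conj (by norm_num) hd0, hA_conj (by norm_num) hd0] at h2
      have h6 := (three_inj (by decide) (by decide) (by decide) (by decide +kernel) h2).1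
      obtain ⟨e1, e2, e3⟩ := cart_vals
      rw [e1, e2, e3, zpow_one, zpow_one, zpow_neg_one, mul_one] at h6
      have hs : ((vsg 18 : ℤ) : K) ≠ 0 := by
        intro h0
        have := congrArg (Int.cast (R := K)) (vsg_sq 18 (by simp))
        rw [Int.cast_mul, h0, mul_zero, Int.cast_one] at this
        exact zero_ne_one this
      have h7 : (d⁻¹ * (φ d * φ (φ d))) * ((vsg 18 : ℤ) : K) = 1 * ((vsg 18 : ℤ) : K) := by
        rw [one_mul]
        calc (d⁻¹ * (φ d * φ (φ d))) * ((vsg 18 : ℤ) : K)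
            = d⁻¹ * (φ d * (φ (φ d) * ((vsg 18 : ℤ) : K))) := by ring
          _ = _ := h6
      have h8 := mul_right_cancel₀ hs h7
      apply hlam
      rw [inv_mul_eq_one₀ hd0] at h8
      exact h8.symm)
  have hX : ∀ t, X φ t ∈ M := fun t => hXM ⟨t, rfl⟩
  have hX1 := hX 1
  -- `v σ⁻¹` normalises `M`
  have hv1 : ∀ g ∈ M, vv K * glEquiv chevD4 τ.symm g * (vv K)⁻¹ ∈ M := by
    intro g hg
    have hgT := hMT hg
    have hg' : vv K * glEquiv chevD4 τ.symm g * (vv K)⁻¹ ∈ twistedD4 K q :=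
      mul_mem (mul_mem hvT (Cfsg.Agent.H69.OutTwD4.le_comap τ.symm q hgT)) (inv_mem hvT)
    rw [hM _ hg', map_mul, map_mul, map_inv, gl_vv]
    have e : glEquiv chevD4 τ (glEquiv chevD4 τ.symm g) = g := (glEquiv chevD4 τ).apply_symm_apply g
    rw [e]
    have e2 : X φ 1 * (vv K)⁻¹ * (vv K * g * (vv K)⁻¹) * (X φ 1 * (vv K)⁻¹)⁻¹ = X φ 1 * g * (X φ 1)⁻¹ := by group
    rw [e2]
    exact mul_mem (mul_mem hX1 hg) (inv_mem hX1)
  have hv2 : ∀ g ∈ twistedD4 K q, vv K * glEquiv chevD4 τ.symm g * (vv K)⁻¹ ∈ M → g ∈ M := by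
    intro g hg hgM
    have h1 := (hM _ (hMT hgM)).1 hgM
    rw [map_mul, map_mul, map_inv, gl_vv] at h1
    have e : glEquiv chevD4 τ (glEquiv chevD4 τ.symm g) = g := (glEquiv chevD4 τ).apply_symm_apply g
    rw [e] at h1
    have e2 : X φ 1 * (vv K)⁻¹ * (vv K * g * (vv K)⁻¹) * (X φ 1 * (vv K)⁻¹)⁻¹ = X φ 1 * g * (X φ 1)⁻¹ := by group
    rw [e2] at h1
    have h2 := mul_mem (mul_mem (inv_mem hX1) h1) hX1
    have e3 : (X φ 1)⁻¹ * (X φ 1 * g * (X φ 1)⁻¹) * X φ 1 = g := by group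
    rwa [e3] at h2
  have hτ' : ∀ a, τ.symm (φ a) = φ (τ.symm a) := fun a => by rw [hφ, hφ, map_pow]
  have hY : ∀ t, Y φ t ∈ M := by
    intro t
    have hs3 : ∀ g ∈ twistedD4 K q, vv K * glEquiv chevD4 τ.symm g * (vv K)⁻¹ ∈ twistedD4 K q := fun g hg =>
      mul_mem (mul_mem hvT (Cfsg.Agent.H69.OutTwD4.le_comap τ.symm q hg)) (inv_mem hvT)
    have hY0 : Y φ t ∈ twistedD4 K q := Y_mem hφ t
    refine hv2 _ hY0 (hv2 _ (hs3 _ hY0) (hv2 _ (hs3 _ (hs3 _ hY0)) (hXM ?_)))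
    simp only [map_mul, map_inv, gl_vv, gl_Y hτ']
    exact Y_conj hK hφ _
  have hnA : nA K ∈ M := by
    have h1 := Cfsg.Agent.ChevalleyStructure.D4H1.n_outer_eq φ 1
    rw [map_one, map_one, wU_nWord_eq (by norm_num), wU_nWord_eq (by norm_num), wU_nWord_eq (by norm_num)] at h1
    have h2 : nA K = nR 18 1 * nR 13 1 * nR 12 (1 : K) := rfl
    rw [h2, ← h1]
    apply Subgroup.list_prod_mem
    intro x hx
    rw [List.mem_map] at hx
    obtain ⟨⟨_ | _, t⟩, _, rfl⟩ := hx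
    · exact hY t
    · exact hX t
  have hnB : ∀ g ∈ M, nB K * glEquiv chevD4 τ.symm g * (nB K)⁻¹ ∈ M := by
    intro g hg
    have := M.mul_mem (M.mul_mem (M.inv_mem hnA) (hv1 g hg)) hnA
    have e : (nA K)⁻¹ * (vv K * glEquiv chevD4 τ.symm g * (vv K)⁻¹) * nA K =
        nB K * glEquiv chevD4 τ.symm g * (nB K)⁻¹ := by
      rw [vv]; group
    rwa [e] at this
  -- long root elements
  have h22 : ∃ ε : K, (ε = 1 ∨ ε = -1) ∧ ∀ t : K, xG 22 (ε * (t + φ t + φ (φ t))) ∈ M := by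
    obtain ⟨a1, a2, a3, k1, k2, k3, r1, r2, r3, r4⟩ :
        ∃ a1 a2 a3 : ℤ, Cfsg.Agent.ChevalleyStructure.D4CommTab.cm 18 17 = some (22, a1) ∧
          Cfsg.Agent.ChevalleyStructure.D4CommTab.cm 13 20 = some (22, a2) ∧
          Cfsg.Agent.ChevalleyStructure.D4CommTab.cm 12 21 = some (22, a3) ∧
          a2 * vsg 13 = a1 * vsg 18 ∧ a3 * vsg 12 = a1 * vsg 18 ∧ a1 * vsg 18 * (a1 * vsg 18) = 1 ∧ True := by
      refine ⟨((Cfsg.Agent.ChevalleyStructure.D4CommTab.cm 18 17).getD (0, 0)).2,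
        ((Cfsg.Agent.ChevalleyStructure.D4CommTab.cm 13 20).getD (0, 0)).2,
        ((Cfsg.Agent.ChevalleyStructure.D4CommTab.cm 12 21).getD (0, 0)).2, ?_, ?_, ?_, ?_, ?_, ?_, trivial⟩ <;>
      decide +kernel
    refine ⟨((a1 * vsg 18 : ℤ) : K), ?_, fun t => ?_⟩
    · have h3 : ((a1 * vsg 18 : ℤ) : K) ^ 2 = 1 := by
        rw [sq, ← Int.cast_mul, r3, Int.cast_one]
      exact Cfsg.Agent.ChevalleyStructure.D4H1.sq_one_cases h3
    · have h3 : X φ 1 * (vv K * X φ t * (vv K)⁻¹) * (X φ 1)⁻¹ * (vv K * X φ t * (vv K)⁻¹)⁻¹ ∈ M := by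
        have h4 : vv K * X φ t * (vv K)⁻¹ ∈ M := by
          have h5 := hv1 _ (hX (τ t))
          rwa [gl_X hτ', RingEquiv.symm_apply_apply] at h5
        exact M.mul_mem (M.mul_mem (M.mul_mem (hX 1) h4) (M.inv_mem (hX 1))) (M.inv_mem h4)
      rw [vv_X, X_def', map_one, map_one] at h3
      rw [comm3 (c_comm2 (by norm_num) (by norm_num) (by norm_num) (by norm_num) (by norm_num) k1 _ _)
        (c_comm2 (by norm_num) (by norm_num) (by norm_num) (by norm_num) (by norm_num) k2 _ _)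
        (c_comm2 (by norm_num) (by norm_num) (by norm_num) (by norm_num) (by norm_num) k3 _ _)
        (c_comm (by norm_num) (by norm_num) (by norm_num) (by norm_num) (by norm_num) (by decide +kernel) _ _)
        (c_comm (by norm_num) (by norm_num) (by norm_num) (by norm_num) (by norm_num) (by decide +kernel) _ _)
        (c_comm (by norm_num) (by norm_num) (by norm_num) (by norm_num) (by norm_num) (by decide +kernel) _ _)
        (c_comm (by norm_num) (by norm_num) (by norm_num) (by norm_num) (by norm_num) (by decide +kernel) _ _)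
        (c_comm (by norm_num) (by norm_num) (by norm_num) (by norm_num) (by norm_num) (by decide +kernel) _ _)
        (c_comm (by norm_num) (by norm_num) (by norm_num) (by norm_num) (by norm_num) (by decide +kernel) _ _)
        (by
          have hcen : ∀ r ∈ [18, 13, 12, 17, 20, 21], ∀ t u : K, xG 22 t * xG r u = (xG r u * xG 22 t :
              GL chevD4.Idx K) := by
            have hd : ∀ r ∈ [18, 13, 12, 17, 20, 21], 12 ≤ r ∧ r < 24 ∧ r ≠ 22 ∧
              Cfsg.Agent.ChevalleyStructure.D4CommTab.cm 22 r = none := by decide +kernel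
            intro r hr t u
            obtain ⟨d1, d2, d3, d4⟩ := hd r hr
            exact c_comm (by norm_num) (by norm_num) d1 d2 d3 d4 t u
          intro g hg
          simp only [Set.mem_insert_iff, Set.mem_singleton_iff] at hg
          rcases hg with rfl | rfl | rfl | rfl | rfl | rfl
          · exact ⟨hcen 18 (by simp) _ _, hcen 18 (by simp) _ _, hcen 18 (by simp) _ _⟩
          · exact ⟨hcen 13 (by simp) _ _, hcen 13 (by simp) _ _, hcen 13 (by simp) _ _⟩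
          · exact ⟨hcen 12 (by simp) _ _, hcen 12 (by simp) _ _, hcen 12 (by simp) _ _⟩
          · exact ⟨hcen 17 (by simp) _ _, hcen 17 (by simp) _ _, hcen 17 (by simp) _ _⟩
          · exact ⟨hcen 20 (by simp) _ _, hcen 20 (by simp) _ _, hcen 20 (by simp) _ _⟩
          · exact ⟨hcen 21 (by simp) _ _, hcen 21 (by simp) _ _, hcen 21 (by simp) _ _⟩)] at h3
      rw [← xG_add, ← xG_add] at h3
      have e : (a1 : K) * (1 * ((vsg 18 : K) * t)) + (a2 : K) * (1 * ((vsg 13 : K) * φ t)) +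
          (a3 : K) * (1 * ((vsg 12 : K) * φ (φ t))) = ((a1 * vsg 18 : ℤ) : K) * (t + φ t + φ (φ t)) := by
        have r1' := congrArg (Int.cast (R := K)) r1
        have r2' := congrArg (Int.cast (R := K)) r2
        push_cast at r1' r2' ⊢
        linear_combination φ t * r1' + φ (φ t) * r2'
      rwa [e] at h3
  obtain ⟨ε, hε, h22⟩ := h22
  have h22' : ∀ v, φ v = v → xG 22 v ∈ M := by
    intro v hv
    obtain ⟨t, ht⟩ := FieldLem.exists_trace hq2 hK φ hφ (phi_sign hε hv)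
    have := h22 t
    rwa [ht, sign_mul_self hε] at this
  have h14 : ∀ v, φ v = v → xG 14 v ∈ M := by
    intro v hv
    obtain ⟨ε', hε', h⟩ := nA_conj_14 K
    have h5 := h22' _ (phi_sign hε' hv)
    rw [← h] at h5
    have := M.mul_mem (M.mul_mem (M.inv_mem hnA) h5) hnA
    have e : (nA K)⁻¹ * (nA K * xG 14 v * (nA K)⁻¹) * nA K = xG 14 v := by group
    rwa [e] at this
  refine twisted_induction hφ ?_ ?_ hX hY
  · intro t ht
    rw [xU_eq]
    exact h14 t ht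
  · intro t ht
    rw [xU_eq]
    obtain ⟨ε', hε', h⟩ := nB_conj_14 K
    have ht' : φ (τ (ε' * t)) = τ (ε' * t) := by
      rw [← hτ, phi_sign hε' ht]
    have h5 := hnB _ (h14 _ ht')
    rw [gl_xG, RingEquiv.symm_apply_apply] at h5
    rwa [h, sign_mul_self hε'] at h5

end Cfsg.Agent.H38.DG.TwD4
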