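import Cfsg.Agent.H38.DG.TwD4
import Cfsg.Agent.H891.DG.Nielsen
import Cfsg.Agent.H230.GenPsl

/-!
# S4180, row `Cos2` for `³D₄(q)` (helper38)

* `cos2_congr`: `Cos2` is invariant under isomorphisms;
* `aut_eq`: every automorphism of `³D₄(q)` is an inner automorphism times a standard field automorphism;
* `cos2_twD4`: the field `twD4` of `Rows Cos2`.
-/

set_option autoImplicit false
set_option maxHeartbeats 400000

namespace Cfsg.Agent.H38.DG

open Cfsg.Agent.H891.Gen Cfsg.Agent.H891.DG Subgroup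

universe u v

/-- `Cos2` is invariant under isomorphisms. -/
theorem cos2_congr {T : Type u} {T' : Type v} [Group T] [Group T'] (e : T ≃* T') (h : Cos2 T') : Cos2 T := by
  intro x y
  set E : MulAut T ≃* MulAut T' := MulAut.congr e with hE
  have hEr : ∀ z : MulAut T, E z ∈ (MulAut.conj : T' →* MulAut T').range ↔
      z ∈ (MulAut.conj : T →* MulAut T).range := by
    intro z
    constructor
    · rintro ⟨t, ht⟩
      refine ⟨e.symm t, ?_⟩
      apply E.injective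
      rw [← ht]
      apply MulEquiv.ext
      intro a
      simp [hE, MulAut.congr]
    · rintro ⟨t, rfl⟩
      refine ⟨e t, ?_⟩
      apply MulEquiv.ext
      intro a
      simp [hE, MulAut.congr]
  obtain ⟨s, hs, t, ht, hle⟩ := h (E x) (E y)
  obtain ⟨s', rfl⟩ := E.surjective s
  obtain ⟨t', rfl⟩ := E.surjective t
  refine ⟨s', (hEr _).1 hs, t', (hEr _).1 ht, ?_⟩
  intro z hz
  have h1 := hle ((hEr z).2 hz)
  have h2 : (closure ({x * s', y * t'} : Set (MulAut T))).map E.toMonoidHom =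
      closure ({E x * E s', E y * E t'} : Set (MulAut T')) := by
    rw [MonoidHom.map_closure, Set.image_pair]
    simp
  rw [← h2] at h1
  obtain ⟨z', hz', h3⟩ := h1
  have : z' = z := E.injective h3
  exact this ▸ hz'

end Cfsg.Agent.H38.DG

namespace Cfsg.Agent.H38.DG.TwD4

open CoxeterSystem Cfsg.Agent.ChevalleyStructure.CoxeterGeom Cfsg.Agent.Tits.Roots Cfsg.Agent.Tits.Core
  Cfsg.Agent.Tits.Exchange Cfsg.Agent.Nodes.Reps Cfsg.Agent.Nodes.BNOf Cfsg.Agent.Nodes.StabComb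
  Cfsg.Agent.Nodes.Bruhat Cfsg.Agent.Nodes.OppDec Cfsg.Agent.Nodes.RGDTwGen Cfsg.Agent.Nodes.RGDChev
  Cfsg.Agent.Nodes.RGDFold Cfsg.Agent.Nodes.RGDFoldSL
open Cfsg.Agent.KFacts.RgdOpp Cfsg.Agent.KFacts.RgdAut Cfsg.Agent.KFacts.RgdDiag Cfsg.Agent.KFacts.RgdRigid
  Cfsg.Agent.KFacts.RgdField Cfsg.Agent.KFacts.RgdTau Cfsg.Agent.KFacts.RgdNodes
open Cfsg.Lie Cfsg.Agent.ChevalleyStructure Cfsg.Agent.ChevStructure.FieldMap
open Cfsg.Agent.KFacts.TwDFour.Out
open Cfsg.Agent.Nodes.RGDTwD4 Cfsg.Agent.Nodes.RGDTwNode.D4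
open Cfsg.Agent.ParSys.Fam.D4 (hf)
open Cfsg.Agent.CpAut.RgdTwStd
open Cfsg.Agent.H69.OutCount Cfsg.Agent.H69.OutTwD4
open Cfsg.Agent.H891.Gen Cfsg.Agent.H891.DG Cfsg.Agent.H891.DG.Nielsen

universe u

variable {K : Type u} [Field K] [Fintype K] {q : ℕ}

omit [Fintype K] in
theorem st_mul (τ τ' : K ≃+* K) : st q (τ * τ') = st q τ * st q τ' := by
  apply MulEquiv.ext
  intro g
  apply Subtype.ext
  show glEquiv chevD4 (τ * τ') (g : GL chevD4.Idx K) = glEquiv chevD4 τ (glEquiv chevD4 τ' g)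
  rw [glE_mul]

omit [Fintype K] in
theorem st_one : st q (1 : K ≃+* K) = 1 := by
  apply MulEquiv.ext
  intro g
  apply Subtype.ext
  show glEquiv chevD4 (1 : K ≃+* K) (g : GL chevD4.Idx K) = g
  rw [glE_one]

/-- **The automorphisms of `³D₄(q)`.** -/
theorem aut_eq (hq : IsPrimePow q) (hK : Fintype.card K = q ^ 3) (p : ℕ) [Fact p.Prime] [CharP K p]
    (β : MulAut ↥(twistedD4 K q)) : ∃ (g : ↥(twistedD4 K q)) (τ : K ≃+* K), β = MulAut.conj g * st q τ := by
  obtain ⟨φ, hφ⟩ := D4Fixed.exists_frob hq hK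
  let cs : CoxeterSystem CoxeterMatrix.G₂ CoxeterMatrix.G₂.Group := CoxeterMatrix.G₂.toCoxeterSystem
  have hfin : Finite CoxeterMatrix.G₂.Group := finiteW cs
  have R := Cfsg.Agent.Nodes.RGDTwD4.rgd cs hK hφ p
  have hG1 : RGD.Sup (X φ q) {x | IsRoot cs isCartan x} = ⊤ := G1_eq_top cs hK hφ
  have hT := card_T hq hK
  -- the kernel
  have h2 : Nat.card {β : MulAut ↥(twistedD4 K q) // DTau hφ hK β 1} ≤ Nat.card ↥(T K q) := by
    refine le_trans (card_scalar_le R hG1 (coordD hφ hK) (Q := fun β => DTau hφ hK β 1) fun β S => ⟨S.diag, fun i => ?_⟩) ?_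
    · have hS : NTau (T K q) (X φ q) (chD hφ hK) β 1 := ⟨S.diag, fun i t ht => Subtype.ext (S.char i t ht)⟩
      obtain ⟨c, hc, e⟩ := NTau.semi (coordD hφ hK) hS i
      exact ⟨c, hc, fun a => e a⟩
    · rw [hT, Fin.prod_univ_two, mul_comm]
      have e1 : Nat.card (KD φ 1) = q ^ 3 := by
        rw [F3_eq_top hK hφ, ← hK, ← Nat.card_eq_fintype_card]
        exact Nat.card_congr Subfield.topEquiv.toEquiv
      have e0 : Nat.card (KD φ 0) - 1 = q - 1 := by
        rw [← D4H1.card_fixed hq.one_lt hK hφ, ← Nat.card_units]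
        have key : ∀ b : (KD φ 0), φ (b : K) = b := fun b => (mem_Fx.1 b.2)
        refine Nat.card_congr
          { toFun := fun b => ⟨Units.map (KD φ 0).subtype.toMonoidHom b, key b⟩
            invFun := fun b => Units.mk0 ⟨(b.1 : K), mem_Fx.2 b.2⟩ (fun h => b.1.ne_zero (congrArg Subtype.val h))
            left_inv := fun b => Units.ext rfl
            right_inv := fun b => Subtype.ext (Units.ext rfl) }
      rw [e0, e1]
  have hinj : Function.Injective (fun t : ↥(T K q) =>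
      (⟨MulAut.conj t.1, dtau_conj hφ hK cs p t.2⟩ : {β : MulAut ↥(twistedD4 K q) // DTau hφ hK β 1})) := by
    intro s t hst
    have h4 : MulAut.conj s.1 = MulAut.conj t.1 := congrArg Subtype.val hst
    apply Subtype.ext
    have h5 : s.1⁻¹ * t.1 ∈ Subgroup.center ↥(twistedD4 K q) := by
      rw [Subgroup.mem_center_iff]
      intro y
      have h6 := DFunLike.congr_fun h4 y
      rw [MulAut.conj_apply, MulAut.conj_apply] at h6
      have h7 : y * (s.1⁻¹ * t.1) = s.1⁻¹ * (s.1 * y * s.1⁻¹) * t.1 := by group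
      rw [h7, h6]; group
    rw [center_eq_bot hq hK, Subgroup.mem_bot] at h5
    exact inv_mul_eq_one.1 h5
  have : Finite (MulAut ↥(twistedD4 K q)) :=
    Finite.of_injective (fun f : MulAut ↥(twistedD4 K q) => (f : ↥(twistedD4 K q) → ↥(twistedD4 K q)))
      DFunLike.coe_injective
  have hsurj : Function.Surjective (fun t : ↥(T K q) =>
      (⟨MulAut.conj t.1, dtau_conj hφ hK cs p t.2⟩ : {β : MulAut ↥(twistedD4 K q) // DTau hφ hK β 1})) := by
    have h3 : Nat.card {β : MulAut ↥(twistedD4 K q) // DTau hφ hK β 1} = Nat.card ↥(T K q) :=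
      le_antisymm h2 (Nat.card_le_card_of_injective _ hinj)
    exact ((Nat.bijective_iff_injective_and_card _).2 ⟨hinj, h3.symm⟩).2
  obtain ⟨g, σ, D⟩ := exists_diag_conj R hG1 β
  have hσ : σ = 1 := by
    apply perm_G2 σ
    intro h3
    have h4 := Diag.card_eq D 0
    rw [h3] at h4
    exact card_ne hφ hK hq.one_lt h4
  subst hσ
  obtain ⟨τ, S⟩ := exists_dtau hφ hK cs p D
  have S2 := (dtau_st hφ hK τ⁻¹ cs p).mul hφ hK S
  rw [inv_mul_cancel] at S2
  obtain ⟨t, ht⟩ := hsurj ⟨_, S2⟩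
  have ht' : MulAut.conj t.1 = st q τ⁻¹ * (MulAut.conj g * β) := congrArg Subtype.val ht
  refine ⟨g⁻¹ * st q τ t.1, τ, ?_⟩
  have e1 : st q τ * st q τ⁻¹ = 1 := by rw [← st_mul, mul_inv_cancel, st_one]
  have e2 : MulAut.conj g * β = st q τ * MulAut.conj t.1 := by
    rw [ht', ← mul_assoc, e1, one_mul]
  have e3 : st q τ * MulAut.conj t.1 = MulAut.conj (st q τ t.1) * st q τ := by
    apply MulEquiv.ext
    intro x
    rw [MulAut.mul_apply, MulAut.mul_apply, MulAut.conj_apply, MulAut.conj_apply, map_mul, map_mul, map_inv]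
  rw [map_mul, map_inv, mul_assoc, ← e3, ← e2, inv_mul_cancel_left]

/-- `Cos2` for `³D₄(q)`. -/
theorem cos2_tw (hq : IsPrimePow q) (hK : Fintype.card K = q ^ 3) : Cos2 ↥(twistedD4 K q) := by
  obtain ⟨p, hp⟩ := CharP.exists K
  have : Fact p.Prime := ⟨(CharP.char_is_prime_or_zero K p).resolve_right
    (CharP.char_ne_zero_of_finite K p)⟩
  have hN := inn_normal ↥(twistedD4 K q)
  -- the outer automorphism group is cyclic
  let Q := MulAut ↥(twistedD4 K q) ⧸ (MulAut.conj : ↥(twistedD4 K q) →* MulAut ↥(twistedD4 K q)).range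
  let f : (K ≃+* K) →* Q := MonoidHom.mk' (fun τ => QuotientGroup.mk' _ (st q τ)) (fun a b => by
    rw [st_mul, map_mul])
  have hf : Function.Surjective f := by
    intro z
    obtain ⟨β, rfl⟩ := QuotientGroup.mk'_surjective _ z
    obtain ⟨g, τ, rfl⟩ := aut_eq hq hK p β
    refine ⟨τ, ?_⟩
    rw [map_mul]
    have h1 : QuotientGroup.mk' (MulAut.conj : ↥(twistedD4 K q) →* MulAut ↥(twistedD4 K q)).range
        (MulAut.conj g) = 1 := (QuotientGroup.eq_one_iff _).2 ⟨g, rfl⟩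
    rw [h1, one_mul]
    rfl
  have hcyc : IsCyclic (K ≃+* K) := Cfsg.Agent.H230.GenPsl.isCyclic_ringAut K
  have hQ : IsCyclic Q := isCyclic_of_surjective f hf
  have : Finite (K ≃+* K) := Finite.of_injective (fun f : K ≃+* K => (f : K → K)) DFunLike.coe_injective
  have hQf : Finite Q := Finite.of_surjective f hf
  refine cos2_of_ker (QuotientGroup.mk' (MulAut.conj : ↥(twistedD4 K q) →* MulAut ↥(twistedD4 K q)).range) ?_
  intro x y hx
  have hx' : x ∈ (MulAut.conj : ↥(twistedD4 K q) →* MulAut ↥(twistedD4 K q)).range :=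
    (QuotientGroup.eq_one_iff _).1 hx
  obtain ⟨g, τ, rfl⟩ := aut_eq hq hK p y
  obtain ⟨h, u, hh, hu, key⟩ := main_tw hq hK τ
  have h1 := lift_of_twist (twistedD4 K q) (glEquiv chevD4 τ) (st q τ) (fun t => rfl) hh hu key
  refine Lift.congr (x := 1) (y := st q τ) (by rw [mul_one]; exact inv_mem hx') ?_ ?_
  · have e : (MulAut.conj g * st q τ)⁻¹ * st q τ = (st q τ)⁻¹ * MulAut.conj g⁻¹ * (st q τ)⁻¹⁻¹ := by
      rw [mul_inv_rev, map_inv, inv_inv]
    rw [e]
    exact hN.conj_mem _ ⟨_, rfl⟩ _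
  · refine ⟨MulAut.conj ⟨h, hh⟩, ⟨_, rfl⟩, (st q τ)⁻¹ * MulAut.conj ⟨u, hu⟩ * (st q τ)⁻¹⁻¹,
      hN.conj_mem _ ⟨_, rfl⟩ _, ?_⟩
    rw [one_mul]
    have e : st q τ * ((st q τ)⁻¹ * MulAut.conj ⟨u, hu⟩ * (st q τ)⁻¹⁻¹) = MulAut.conj ⟨u, hu⟩ * st q τ := by group
    rw [e]
    exact h1

/-- The field `twD4` of `Rows Cos2`. -/
theorem cos2_twD4 (T : Type u) [Group T] [Finite T] [IsSimpleGroup T] (h : Iso3D4 T) : Cos2 T := by
  obtain ⟨K, _, _, q, hq, hK, ⟨e⟩⟩ := h
  exact cos2_congr e (cos2_tw hq hK)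

end Cfsg.Agent.H38.DG.TwD4
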