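import Cfsg.Agent.H891.DG.Defs

/-!
# S4180, rows `Cos2`: the torus trick with a twist (helper38)

`T` is a subgroup of a group `L` (matrix group), `σ` an automorphism of `L` (field automorphism) with `σ T = T`.

* `twisted_trick`: the torus trick for a subgroup `M` of `L` which contains `h` and is normalised by `(u w) σ`;
* `lift_of_twist`: an automorphism `ρ` of `T` induced by `σ`; if every subgroup `M ≤ T` with `h ∈ M`, normalised by
  `u σ`, is all of `T` then `⟨inn h, inn u * ρ⟩` contains `Inn T`.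
-/

set_option autoImplicit false

namespace Cfsg.Agent.H38.DG

open Cfsg.Agent.H891.Gen Cfsg.Agent.H891.DG Subgroup

/-- **The torus trick with a twist.** -/
theorem twisted_trick {G : Type*} [Group G] (σ : G ≃* G) (M X : Subgroup G) {h w u : G} (hM : h ∈ M)
    (huw : ∀ g ∈ M, (u * w) * σ g * (u * w)⁻¹ ∈ M) (hu : u ∈ X)
    (hX1 : ∀ x ∈ X, (w * σ h * w⁻¹) * x * (w * σ h * w⁻¹)⁻¹ ∈ X)
    (hX2 : ∀ x ∈ X, (w * σ h * w⁻¹)⁻¹ * x * (w * σ h * w⁻¹) ∈ X)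
    (hirr : ∀ Y : Subgroup G, Y ≤ X → (∀ y ∈ Y, h * y * h⁻¹ ∈ Y) → Y = ⊥ ∨ Y = X)
    (hnt : ∃ x ∈ X, h * x ≠ x * h)
    (hXn : ∀ x ∈ X, h * x * h⁻¹ ∈ X)
    (hcomm : h * (w * σ h * w⁻¹) = (w * σ h * w⁻¹) * h)
    (hne : (w * σ h * w⁻¹) * u ≠ u * (w * σ h * w⁻¹)) :
    X ≤ M ∧ ∀ g ∈ M, w * σ g * w⁻¹ ∈ M := by
  set h₁ := w * σ h * w⁻¹ with hh₁
  -- the centraliser of `h` in `X` is trivial
  have hcent : ∀ x ∈ X, h * x = x * h → x = 1 := by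
    rcases hirr (X ⊓ Subgroup.centralizer {h}) inf_le_left (by
      intro y hy
      have h1 : h * y = y * h := by
        have := Subgroup.mem_centralizer_iff.1 hy.2 h (Set.mem_singleton h)
        exact this
      rwa [h1, mul_inv_cancel_right]) with h1 | h1
    · intro x hx hxh
      have : x ∈ X ⊓ Subgroup.centralizer {h} := by
        refine ⟨hx, Subgroup.mem_centralizer_iff.2 ?_⟩
        rintro _ rfl
        exact hxh
      rw [h1] at this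
      exact this
    · exfalso
      obtain ⟨x, hx, hne⟩ := hnt
      rw [← h1] at hx
      exact hne (Subgroup.mem_centralizer_iff.1 hx.2 h (Set.mem_singleton h))
  -- the element `y = h₁⁻¹ u h₁ u⁻¹`
  set y := h₁⁻¹ * u * h₁ * u⁻¹ with hy
  have hyX : y ∈ X := X.mul_mem (hX2 u hu) (X.inv_mem hu)
  have hy1 : y ≠ 1 := by
    intro h0
    apply hne
    have h2 : h₁⁻¹ * u * h₁ = u := by
      rw [hy, mul_inv_eq_one] at h0; exact h0
    calc h₁ * u = h₁ * (h₁⁻¹ * u * h₁) := by rw [h2]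
      _ = u * h₁ := by group
  have hm1 : h₁ * y ∈ M := by
    have h3 : h₁ * y = (u * w) * σ h * (u * w)⁻¹ := by
      rw [hy, hh₁]; group
    rw [h3]
    exact huw h hM
  -- the commutator of `h` and `h₁ y`
  set z := h₁ * (h * y * h⁻¹ * y⁻¹) * h₁⁻¹ with hz
  have hzX : z ∈ X := by
    have h5 := hX1 _ (X.mul_mem (hXn y hyX) (X.inv_mem hyX))
    rwa [hz]
  have hz1 : z ≠ 1 := by
    intro h0
    apply hy1
    apply hcent y hyX
    rw [hz] at h0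
    have h4 : h * y * h⁻¹ * y⁻¹ = 1 := by
      calc h * y * h⁻¹ * y⁻¹ = h₁⁻¹ * (h₁ * (h * y * h⁻¹ * y⁻¹) * h₁⁻¹) * h₁ := by group
        _ = 1 := by rw [h0]; group
    rw [mul_inv_eq_one, mul_inv_eq_iff_eq_mul] at h4
    exact h4
  have hzM : z ∈ M := by
    have h5 : z = h * (h₁ * y) * h⁻¹ * (h₁ * y)⁻¹ := by
      rw [hz]
      calc h₁ * (h * y * h⁻¹ * y⁻¹) * h₁⁻¹ = (h₁ * h) * y * h⁻¹ * y⁻¹ * h₁⁻¹ := by group
        _ = (h * h₁) * y * h⁻¹ * y⁻¹ * h₁⁻¹ := by rw [hcomm]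
        _ = _ := by group
    rw [h5]
    exact M.mul_mem (M.mul_mem (M.mul_mem hM hm1) (M.inv_mem hM)) (M.inv_mem hm1)
  have hXM : X ≤ M := by
    rcases hirr (X ⊓ M) inf_le_left (by
      intro x hx
      exact ⟨hXn x hx.1, M.mul_mem (M.mul_mem hM hx.2) (M.inv_mem hM)⟩) with h6 | h6
    · exfalso
      apply hz1
      have : z ∈ X ⊓ M := ⟨hzX, hzM⟩
      rw [h6] at this
      exact this
    · rw [← h6]; exact inf_le_right
  refine ⟨hXM, fun g hg => ?_⟩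
  have h7 := M.mul_mem (M.mul_mem (M.inv_mem (hXM hu)) (huw g hg)) (hXM hu)
  have e : u⁻¹ * (u * w * σ g * (u * w)⁻¹) * u = w * σ g * w⁻¹ := by group
  rwa [e] at h7

/-- From the matrix group to the automorphism group. -/
theorem lift_of_twist {L : Type*} [Group L] (T : Subgroup L) (σ : L ≃* L) (ρ : MulAut ↥T)
    (hρ : ∀ t : ↥T, ((ρ t : ↥T) : L) = σ t) {h u : L} (hh : h ∈ T) (hu : u ∈ T)
    (key : ∀ M : Subgroup L, M ≤ T → h ∈ M → (∀ g ∈ T, (g ∈ M ↔ u * σ g * u⁻¹ ∈ M)) → T ≤ M) :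
    (MulAut.conj : ↥T →* MulAut ↥T).range ≤
      closure ({MulAut.conj ⟨h, hh⟩, MulAut.conj ⟨u, hu⟩ * ρ} : Set (MulAut ↥T)) := by
  set C := closure ({MulAut.conj ⟨h, hh⟩, MulAut.conj ⟨u, hu⟩ * ρ} : Set (MulAut ↥T)) with hC
  have h1 : MulAut.conj ⟨h, hh⟩ ∈ C := subset_closure (by simp)
  have h2 : MulAut.conj ⟨u, hu⟩ * ρ ∈ C := subset_closure (by simp)
  have h3 : T ≤ (C.comap MulAut.conj).map T.subtype := by
    apply key
    · rintro _ ⟨g, -, rfl⟩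
      exact g.2
    · exact ⟨⟨h, hh⟩, h1, rfl⟩
    · intro g hg
      have e : MulAut.conj (⟨u, hu⟩ * ρ ⟨g, hg⟩ * (⟨u, hu⟩ : ↥T)⁻¹) =
          (MulAut.conj ⟨u, hu⟩ * ρ) * MulAut.conj ⟨g, hg⟩ * (MulAut.conj ⟨u, hu⟩ * ρ)⁻¹ := by
        rw [map_mul, map_mul, map_inv, mul_inv_rev]
        have e2 : ρ * MulAut.conj ⟨g, hg⟩ * ρ⁻¹ = MulAut.conj (ρ ⟨g, hg⟩) := by
          apply MulEquiv.ext
          intro x
          rw [MulAut.mul_apply, MulAut.mul_apply, MulAut.conj_apply, MulAut.conj_apply, map_mul, map_mul, map_inv,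
            MulAut.apply_inv_self]
        rw [← e2]
        group
      have e3 : u * σ g * u⁻¹ = ((⟨u, hu⟩ * ρ ⟨g, hg⟩ * (⟨u, hu⟩ : ↥T)⁻¹ : ↥T) : L) := by
        rw [Subgroup.coe_mul, Subgroup.coe_mul, hρ, Subgroup.coe_inv]
      constructor
      · rintro ⟨g', hg', hgg⟩
        have : g' = ⟨g, hg⟩ := Subtype.ext hgg
        subst this
        refine ⟨⟨u, hu⟩ * ρ ⟨g, hg⟩ * (⟨u, hu⟩ : ↥T)⁻¹, ?_, e3.symm⟩
        show MulAut.conj (⟨u, hu⟩ * ρ ⟨g, hg⟩ * (⟨u, hu⟩ : ↥T)⁻¹) ∈ C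
        rw [e]
        exact mul_mem (mul_mem h2 hg') (inv_mem h2)
      · rintro ⟨g', hg', hgg⟩
        have : g' = (⟨u, hu⟩ * ρ ⟨g, hg⟩ * (⟨u, hu⟩ : ↥T)⁻¹ : ↥T) := Subtype.ext (by rw [← e3]; exact hgg)
        subst this
        refine ⟨⟨g, hg⟩, ?_, rfl⟩
        show MulAut.conj ⟨g, hg⟩ ∈ C
        have h4 : MulAut.conj (⟨u, hu⟩ * ρ ⟨g, hg⟩ * (⟨u, hu⟩ : ↥T)⁻¹) ∈ C := hg'
        rw [e] at h4
        have h5 := mul_mem (mul_mem (inv_mem h2) h4) h2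
        have e5 : (MulAut.conj ⟨u, hu⟩ * ρ)⁻¹ * ((MulAut.conj ⟨u, hu⟩ * ρ) * MulAut.conj ⟨g, hg⟩ *
            (MulAut.conj ⟨u, hu⟩ * ρ)⁻¹) * (MulAut.conj ⟨u, hu⟩ * ρ) = MulAut.conj ⟨g, hg⟩ := by group
        rwa [e5] at h5
  rintro _ ⟨t, rfl⟩
  obtain ⟨g', hg', hgg⟩ := h3 t.2
  have : g' = t := Subtype.ext hgg
  subst this
  exact hg'

end Cfsg.Agent.H38.DG
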